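import Mathlib
import Cfsg.Agent.Lib.Helper33.SL2Nat.Defs

set_option autoImplicit false

/-!
# S3009, package (M3a) `SecondLayer` (helper86)

The `p`-group `U⁺ = {x(s)}` acts on the nontrivial `p`-group `V ⧸ C_V(U⁺)` and fixes the trivial
coset, hence it fixes a second coset.
-/

namespace Cfsg.Agent.Lib.Helper86.SL2Nat

open Cfsg.Agent.Lib.Helper48.FrakL Cfsg.Agent.Lib.Helper33.FrakL Cfsg.Agent.Lib.Helper33.SL2Nat

universe u v

/-- the root group `s ↦ ρ (x(s))` as a homomorphism from `Multiplicative F` -/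
def rootHom {F : Type u} [Field F] {V : Type v} [CommGroup V]
    (ρ : Matrix.SpecialLinearGroup (Fin 2) F →* MulAut V) : Multiplicative F →* MulAut V where
  toFun s := ρ (xe (Multiplicative.toAdd s))
  map_one' := by
    rw [toAdd_one, xe_zero, map_one]
  map_mul' := by
    intro a b
    rw [toAdd_mul, ← xe_add, map_mul]

theorem rootHom_apply {F : Type u} [Field F] {V : Type v} [CommGroup V]
    (ρ : Matrix.SpecialLinearGroup (Fin 2) F →* MulAut V) (s : Multiplicative F) (w : V) :
    rootHom ρ s w = ρ (xe (Multiplicative.toAdd s)) w := rfl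

theorem isPGroup_multiplicative {F : Type u} [Field F] {p : ℕ} [Fact p.Prime] [CharP F p] :
    IsPGroup p (Multiplicative F) := by
  intro g
  refine ⟨1, ?_⟩
  rw [pow_one]
  apply Multiplicative.toAdd.injective
  rw [toAdd_pow, toAdd_one, nsmul_eq_mul, CharP.cast_eq_zero, zero_mul]

/-- **(M3a)** -/
theorem secondLayer : Cfsg.Agent.Lib.Helper33.SL2Nat.SecondLayer.{u, v} := by
  intro F _ _ p _ _ V _ _ ρ hV hne
  classical
  letI : MulAction (Multiplicative F) V := MulAction.compHom V (rootHom ρ)
  have hsmul : ∀ (s : Multiplicative F) (w : V), s • w = ρ (xe (Multiplicative.toAdd s)) w :=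
    fun _ _ => rfl
  haveI : MulAction.QuotientAction (Multiplicative F) (fixX ρ) := by
    refine ⟨fun b a a' h => ?_⟩
    rw [hsmul, hsmul, ← map_inv, ← map_mul]
    rw [(mem_fixX ρ).mp h (Multiplicative.toAdd b)]
    exact h
  have hU : IsPGroup p (Multiplicative F) := isPGroup_multiplicative
  have hdvd : p ∣ Nat.card (V ⧸ fixX ρ) := by
    obtain ⟨n, hn⟩ := hV.index (fixX ρ)
    have hn0 : n ≠ 0 := by
      intro h0
      rw [h0, pow_zero] at hn
      exact hne (Subgroup.index_eq_one.mp hn)
    have : (fixX ρ).index = Nat.card (V ⧸ fixX ρ) := rfl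
    rw [← this, hn]
    exact dvd_pow_self p hn0
  have hfix : ((1 : V) : V ⧸ fixX ρ) ∈ MulAction.fixedPoints (Multiplicative F) (V ⧸ fixX ρ) := by
    intro s
    rw [MulAction.Quotient.smul_mk, hsmul, map_one]
  obtain ⟨b, hb, hab⟩ := hU.exists_fixed_point_of_prime_dvd_card_of_fixed_point
    (V ⧸ fixX ρ) hdvd hfix
  induction b using QuotientGroup.induction_on with
  | H w =>
    refine ⟨w, ?_, ?_⟩
    · intro hw
      apply hab
      exact ((QuotientGroup.eq_one_iff w).mpr hw).symm
    · intro s
      have h1 := hb (Multiplicative.ofAdd s)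
      rw [MulAction.Quotient.smul_mk, hsmul, toAdd_ofAdd] at h1
      have h2 := QuotientGroup.eq.mp h1
      have h3 := (fixX ρ).inv_mem h2
      rw [mul_inv_rev, inv_inv, mul_comm] at h3
      exact h3

end Cfsg.Agent.Lib.Helper86.SL2Nat
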